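import Cfsg.Agent.H549.NW.Grp
import Cfsg.Agent.H549.PBA.BinPerm
import Cfsg.Agent.Nodes.KindA

/-!
# The Weyl side of type `A` (helper549, S4884, block D)

* `eA : W ≃* Perm (Fin (n + 1))` for `cs : CoxeterSystem (cA n) W`;
* `exists_dig` : a `2`-element of `Perm (Fin N)` whose cycle lengths are the binary digits of `N`;
* `wside_A : WSide cs (n + 1) JB`.
-/

set_option autoImplicit false
set_option linter.unusedSectionVars false
set_option linter.unusedVariables false

open Cfsg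

namespace Cfsg.Agent.H549.NW

open Finset Cfsg.Agent.H614 Cfsg.Agent.H439.CC Equiv Cfsg.Agent.Characters.Core
open CoxeterSystem Cfsg.Agent.ChevalleyStructure.CoxeterGeom Cfsg.Agent.Tits.Roots
  Cfsg.Agent.Nodes.RootsA Cfsg.Agent.Nodes.KindA
open Cfsg.Agent.LieRecognition.BNCox (cA cA_apply)

/-! ### The element with the binary digits as cycle lengths -/

theorem exists_ty {n : ℕ} {s : Multiset ℕ} (hs : s.sum = n) (hpos : ∀ x ∈ s, 0 < x) :
    ∃ σ : Perm (Fin n), ty σ = s := by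
  have h1 := parts_eq (⟨s, fun {i} hi => hpos i hi, hs⟩ : n.Partition)
  simp only at h1
  have h2 : (s.filter (fun k => 2 ≤ k)).sum + s.count 1 = n := by
    rw [← hs]
    conv_rhs => rw [h1]
    rw [Multiset.sum_add]
    simp
  obtain ⟨y, hy⟩ := (Perm.exists_with_cycleType_iff (Fin n) (m := s.filter (fun k => 2 ≤ k))).2
    ⟨by rw [Fintype.card_fin]; omega, fun x hx => (Multiset.mem_filter.1 hx).2⟩
  refine ⟨y, ?_⟩
  rw [ty_eq, hy, Fintype.card_fin]
  conv_rhs => rw [h1]
  rw [show n - (s.filter (fun k => 2 ≤ k)).sum = s.count 1 by omega]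

theorem dig_pow {N d : ℕ} (h : d ∈ dig N) : ∃ k, d = 2 ^ k := by
  unfold dig at h
  obtain ⟨i, -, rfl⟩ := List.mem_map.1 h
  exact ⟨i, rfl⟩

theorem dig_pos {N d : ℕ} (h : d ∈ dig N) : 1 ≤ d := by
  obtain ⟨k, rfl⟩ := dig_pow h
  exact Nat.one_le_two_pow

theorem sum_dig (N : ℕ) : (dig N).sum = N := Nat.sum_map_two_pow_bitIndices N

theorem nodup_dig (N : ℕ) : (dig N).Nodup := by
  unfold dig
  exact Nat.bitIndices_nodup.map (Nat.pow_right_injective le_rfl)

theorem exists_dig (N : ℕ) : ∃ w : Perm (Fin N), ty w = (dig N : Multiset ℕ) ∧ ∃ k : ℕ, orderOf w = 2 ^ k := by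
  obtain ⟨w, hw⟩ := exists_ty (n := N) (s := (dig N : Multiset ℕ)) (by rw [Multiset.sum_coe, sum_dig])
    (fun x hx => dig_pos (Multiset.mem_coe.1 hx))
  refine ⟨w, hw, ?_⟩
  have h1 : orderOf w ∣ 2 ^ N := by
    rw [← Perm.lcm_cycleType, Multiset.lcm_dvd]
    intro x hx
    have h2 : x ∈ ty w := by
      rw [ty_eq]
      exact Multiset.mem_add.2 (Or.inl hx)
    rw [hw, Multiset.mem_coe] at h2
    obtain ⟨k, rfl⟩ := dig_pow h2
    apply pow_dvd_pow
    have h3 : 2 ^ k ≤ N := by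
      calc 2 ^ k ≤ (dig N).sum := List.le_sum_of_mem h2
        _ = N := sum_dig N
    exact (Nat.lt_two_pow_self).le.trans h3
  obtain ⟨k, -, hk⟩ := (Nat.dvd_prime_pow Nat.prime_two).1 h1
  exact ⟨k, hk⟩

/-- the Weyl side in `Perm (Fin N)` -/
theorem perm_side {N : ℕ} {ψ : Perm (Fin N) → ℂ} (hψ : IsIrrCharacter (Perm (Fin N)) ψ)
    (h : ∑ K ∈ (Icc 1 N).powerset, (coL (dig N) K : ℂ) * mu (YY N K) ψ ≠ 0) : ¬ 2 ∣ charDegree ψ := by
  obtain ⟨w, hw, hord⟩ := exists_dig N
  rw [newton_perm (fun d hd => dig_pos hd) (sum_dig N) (fun g h => isIrr_isClassFunction hψ h g) hw] at h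
  obtain ⟨z, hz, hz1⟩ := PBA.perm_le_one hψ (w := w) (by rw [hw]; exact Multiset.coe_nodup.2 (nodup_dig N))
    (fun x hx => dig_pow (N := N) (Multiset.mem_coe.1 (hw ▸ hx)))
  refine PBA.odd_of_value hψ hord hz ?_
  intro h2
  apply h
  rw [hz]
  have : z = 0 := by
    rw [abs_le] at hz1
    omega
  rw [this, Int.cast_zero]

/-! ### The Weyl group of type `A_n` -/

section TypeA

variable {n : ℕ} {W : Type*} [Group W] (cs : CoxeterSystem (cA n) W) {A : Fin n → Fin n → ℤ}
  (h : IsCartan (cA n) A)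

/-- `w` induces `σ`. -/
def Ind (w : W) (σ : Perm (Fin (n + 1))) : Prop := ∀ a b, rep cs h w (rtA a b) = rtA (σ a) (σ b)

theorem Ind.mul {w v : W} {σ τ : Perm (Fin (n + 1))} (hw : Ind cs h w σ) (hv : Ind cs h v τ) :
    Ind cs h (w * v) (σ * τ) := by
  intro a b
  rw [rep_mul_apply, hv, hw]
  rfl

theorem Ind.one : Ind cs h (1 : W) 1 := fun a b => by rw [map_one]; rfl

theorem Ind.pow {w : W} {σ : Perm (Fin (n + 1))} (hw : Ind cs h w σ) (k : ℕ) : Ind cs h (w ^ k) (σ ^ k) := by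
  induction k with
  | zero => rw [pow_zero, pow_zero]; exact Ind.one cs h
  | succ k ih => rw [pow_succ, pow_succ]; exact Ind.mul cs h ih hw

theorem ind_simple (i : Fin n) : Ind cs h (cs.simple i) (swap i.castSucc i.succ) := rep_simple_rtA cs h i

theorem ind_inj {w v : W} {σ : Perm (Fin (n + 1))} (hw : Ind cs h w σ) (hv : Ind cs h v σ) : w = v := by
  apply rep_injective cs h
  refine LinearMap.ext fun x => ?_
  have h1 : ∀ i, rep cs h w (sr i) = rep cs h v (sr i) := fun i => by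
    rw [← rtA_sr, hw, hv]
  have h2 : x = ∑ k, x k • sr k := by
    funext k
    simp [sr, Finset.sum_apply, Pi.single_apply]
  rw [h2, map_sum, map_sum]
  exact Finset.sum_congr rfl fun k _ => by rw [map_smul, map_smul, h1]

theorem ind_unique {w : W} {σ τ : Perm (Fin (n + 1))} (h1 : Ind cs h w σ) (h2 : Ind cs h w τ) : σ = τ := by
  ext a
  by_cases hn : ∃ b : Fin (n + 1), b ≠ a
  · obtain ⟨b, hb⟩ := hn
    have h3 : rtA (σ a) (σ b) = rtA (τ a) (τ b) := by rw [← h1, ← h2]
    have h4 := (rtA_inj (fun h => hb.symm (σ.injective h)) h3).1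
    rw [h4]
  · push Not at hn
    rw [hn (σ a), hn (τ a)]

include h in
theorem liftableA : (cA n).IsLiftable (fun i : Fin n => (swap i.castSucc i.succ : Perm (Fin (n + 1)))) := by
  intro i j
  -- transport the relation from the group of type `A_n`
  have h1 := (cA n).toCoxeterSystem.simple_mul_simple_pow i j
  have h2 := Ind.pow (cA n).toCoxeterSystem h (Ind.mul _ h (ind_simple (cA n).toCoxeterSystem h i)
    (ind_simple (cA n).toCoxeterSystem h j)) ((cA n) i j)
  have h3 := h1 ▸ h2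
  exact ind_unique (cA n).toCoxeterSystem h h3 (Ind.one _ h)

/-- `W → Perm (Fin (n + 1))` -/
noncomputable def pA : W →* Perm (Fin (n + 1)) := cs.lift ⟨_, liftableA h⟩

theorem pA_simple (i : Fin n) : pA cs h (cs.simple i) = swap i.castSucc i.succ := cs.lift_apply_simple _ i

theorem ind_pA (w : W) : Ind cs h w (pA cs h w) := by
  refine cs.simple_induction_left (p := fun w => Ind cs h w (pA cs h w)) w ?_ ?_
  · rw [map_one]; exact Ind.one cs h
  · intro w i hw
    rw [map_mul, pA_simple]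
    exact Ind.mul cs h (ind_simple cs h i) hw

theorem pA_injective : Function.Injective (pA cs h) := by
  intro w v hwv
  exact ind_inj cs h (ind_pA cs h w) (hwv ▸ ind_pA cs h v)

theorem pA_surjective : Function.Surjective (pA cs h) := by
  intro σ
  obtain ⟨w, hw⟩ := exists_w cs h σ
  exact ⟨w, ind_unique cs h (ind_pA cs h w) hw⟩

/-- the Weyl group of type `A_n` is the symmetric group -/
noncomputable def eA : W ≃* Perm (Fin (n + 1)) := MulEquiv.ofBijective (pA cs h) ⟨pA_injective cs h, pA_surjective cs h⟩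

theorem eA_simple (i : Fin n) : eA cs h (cs.simple i) = swap i.castSucc i.succ := pA_simple cs h i

theorem map_WJ (K : Finset ℕ) : (WJ cs (JB K ())).map (eA cs h).toMonoidHom = YY (n + 1) K := by
  unfold WJ YY
  rw [MonoidHom.map_closure]
  congr 1
  ext σ
  constructor
  · rintro ⟨_, ⟨i, hi, rfl⟩, rfl⟩
    exact ⟨i, by have := i.2; omega, hi, eA_simple cs h i⟩
  · rintro ⟨i, hi, h1, rfl⟩
    exact ⟨_, ⟨⟨i, by omega⟩, h1, rfl⟩, eA_simple cs h ⟨i, by omega⟩⟩

include h in
theorem wside_A' : WSide cs (n + 1) JB := by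
  intro φ hφ
  let ψ : Perm (Fin (n + 1)) → ℂ := (φ : W → ℂ) ∘ (eA cs h).symm
  have hψ : IsIrrCharacter (Perm (Fin (n + 1))) ψ :=
    isIrr_comp (eA cs h).symm.toMonoidHom (eA cs h).symm.surjective φ.2
  have hWf : Finite W := Finite.of_injective (eA cs h) (eA cs h).injective
  have h1 : ∀ K, mu (WJ cs (JB K ())) (φ : W → ℂ) = mu (YY (n + 1) K) ψ := by
    intro K
    rw [← map_WJ cs h, mu_map (f := (eA cs h).toMonoidHom) (eA cs h).injective]
    congr 1
    funext x
    show _ = (φ : W → ℂ) ((eA cs h).symm (eA cs h x))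
    rw [MulEquiv.symm_apply_apply]
  simp only [Fintype.sum_unique] at hφ
  rw [Finset.sum_congr rfl fun K _ => congrArg _ (h1 K)] at hφ
  have h2 := perm_side hψ hφ
  have h3 : charDegree ψ = charDegree (φ : W → ℂ) := by
    have h4 := Blocks.Basic.irr_one_eq_charDegree hψ
    have h5 := Blocks.Basic.irr_one_eq_charDegree φ.2
    have h6 : ψ 1 = (φ : W → ℂ) 1 := by
      show (φ : W → ℂ) ((eA cs h).symm 1) = _
      rw [map_one]
    rw [h4, h5] at h6
    exact_mod_cast h6
  rwa [h3] at h2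

/-- **Block D, type `A`** -/
theorem wside_A : WSide cs (n + 1) JB := wside_A' cs (isCartan n)

end TypeA

end Cfsg.Agent.H549.NW
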